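import Cfsg.Agent.H883.BR.Defs

/-!
# HUB BR: the interface between the generic part and the families of classical groups
-/

set_option autoImplicit false

namespace Cfsg.Agent.H883.BR

universe u v w

/-- **The input of one family** (all families except `Sp_{2m}(2^f)`).

`n = dim V`, `ρ : G → GL(V)` the natural representation over `K`, `F` the field of the root groups (`q` elements),
`x` the root groups, `σ : G → GL(W)` the "adjoint" representation: `sl / scalars` for `SL_n`, `SU_n`; `Sym² V = 𝔰𝔭` for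
`Sp`, `q` odd; `Λ² V = 𝔰𝔬` for `Ω`, `q` odd; the non-trivial factor of `Λ² V` for `Ω`, `q` even. -/
structure Fam (p n d q : ℕ) {K : Type u} [Field K] (F : Subfield K) {G : Type w} [Group G] {V W : Type u}
    [AddCommGroup V] [Module K V] [AddCommGroup W] [Module K W] (ρ : G →* Module.End K V)
    (σ : G →* Module.End K W) : Prop where
  prime : p.Prime
  char : CharP K p
  closed : IsAlgClosed K
  /-- every finite subset of `K` lies in a finite subfield -/
  locfin : ∀ S : Set K, S.Finite → ∃ E : Subfield K, Finite E ∧ S ⊆ E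
  finF : Finite F
  cardF : Nat.card F = q
  finG : Finite G
  qs : QS G
  fdV : FiniteDimensional K V
  fdW : FiniteDimensional K W
  dimV : Module.finrank K V = n
  two_le : 2 ≤ n
  dimW : Module.finrank K W ≤ n ^ 2
  inj : Function.Injective ρ
  irr : Irr ρ ⊤
  tprim : TPrim ρ
  /-- root groups -/
  root : ∃ (ι : Type w) (x : ι → F → G), OneP F x ∧ PolyDeg ρ F x 1 ∧ PolyDeg σ F x 2
  /-- `σ` is an irreducible subquotient of `ad ρ` -/
  inh : ∀ M : Subgroup G, Dns (ad ρ) M → Irr σ M
  cen : ∀ (z : G) (c : K), ρ z = c • 1 → σ z = 1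
  /-- a root element from the centre of `U`, if `U` has a line of fixed points in `W` -/
  ext : ∀ M U : Subgroup G, U ≤ M → IsPGroup p U → U ≠ ⊥ → Dns (ad ρ) M → ∀ w : W, w ≠ 0 →
    (∀ v : W, (∀ u ∈ U, σ u v = v) ↔ ∃ c : K, v = c • w) →
    ∃ z ∈ U, ∃ a : Module.End K V, a ≠ 0 ∧ a * a = 0 ∧ ρ z = 1 + a ∧
      (∀ b ∈ M, (∀ u ∈ U, b * u * b⁻¹ ∈ U) → ∀ c : K, σ b w = c • w → ad ρ b a = c • a) ∧
      ∀ S : Submodule K (Module.End K V), Inv (ad ρ) ⊤ S → a ∈ S → d ≤ Module.finrank K S
  /-- the traces of the adjoint module lie in `F` -/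
  trF : ∀ g : G, LinearMap.trace K W (σ g) ∈ F
  count : ∀ M : Subgroup G, M ≠ ⊤ → Nat.card M < Nat.choose (q - 1 + d) d
  trn : ∃ g h : G, (LinearMap.trace K W (σ g)) ^ Module.finrank K W ≠
    (LinearMap.trace K W (σ h)) ^ Module.finrank K W
  pw : ∀ k, 0 < k → 2 * k + 1 < q → ∃ g : G, ad ρ (g ^ k) ≠ 1

/-- `G` has the data of a family (`n` the dimension, `q` the size of the field of the root groups) -/
def HasFam (n q : ℕ) (G : Type w) [Group G] : Prop :=
  ∃ (p d : ℕ) (K : Type u) (_ : Field K) (F : Subfield K) (V W : Type u) (_ : AddCommGroup V) (_ : Module K V)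
    (_ : AddCommGroup W) (_ : Module K W) (ρ : G →* Module.End K V) (σ : G →* Module.End K W), Fam p n d q F ρ σ

end Cfsg.Agent.H883.BR
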