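import Cfsg.Agent.H883.BR.Fam
import Cfsg.Agent.H545.BR.Str
import Cfsg.Agent.H601.BR.Fld
import Cfsg.Agent.H869.BR.Root
import Cfsg.Agent.H110.BR.PM
import Cfsg.Agent.H886.BR.Cls

/-!
# HUB BR, D5: from a family to `Row` (C8 and D1 + D2 as hypotheses)
-/

set_option autoImplicit false

namespace Cfsg.Agent.H883.BR

universe u v w

/-- C8 -/
def StStr : Prop := ∀ n : ℕ, ∃ B : ℕ, ∀ (p : ℕ) (_ : p.Prime) (K : Type u) [Field K] [CharP K p] [IsAlgClosed K]
    (_ : ∀ S : Set K, S.Finite → ∃ E : Subfield K, Finite E ∧ S ⊆ E)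
    (G : Type w) [Group G] [Finite G] (V : Type v) [AddCommGroup V] [Module K V] [FiniteDimensional K V]
    (ρ : G →* Module.End K V), Module.finrank K V = n → 2 ≤ n → Function.Injective ρ → QS G → Irr ρ ⊤ → TPrim ρ →
    ∀ H : Subgroup G, Dns (ad (ad ρ)) H → ∀ y ∈ H, (∀ k, 0 < k → k ≤ B → ¬ ∃ c : K, ρ (y ^ k) = c • 1) →
    ∃ M : Subgroup G, M ≤ H ∧ (∀ h ∈ H, ∀ m ∈ M, h * m * h⁻¹ ∈ M) ∧ Dns (ad ρ) M ∧ Irr ρ M ∧ commutator M = ⊤ ∧
      IsSimpleGroup (M ⧸ Subgroup.center M) ∧ ¬ IsMulCommutative (M ⧸ Subgroup.center M) ∧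
      Cfsg.IsLieTypeChar p (M ⧸ Subgroup.center M) ∧ ∀ z : M, z ∈ Subgroup.center M ↔ ∃ c : K, ρ z = c • 1

/-- D1 + D2 -/
def StCRG : Prop := ∀ (p : ℕ) [Fact p.Prime] (M : Type w) [Group M] [Finite M], commutator M = ⊤ →
    IsSimpleGroup (M ⧸ Subgroup.center M) → Cfsg.IsLieTypeChar p (M ⧸ Subgroup.center M) →
    ¬ p ∣ Nat.card (Subgroup.center M) → ∃ U : Subgroup M, CRG.{u, v, w} p U

/-- B1 -/
theorem pm' {K : Type u} {A : Type v} [Field K] [Ring A] [Algebra K A] (F : Subfield K) [Finite F] (d : ℕ)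
    (N : Fin d → A) (hN : LinearIndependent K N) (M : Submonoid A) [Finite M]
    (hM : ∀ i, ∀ t ∈ F, (1 + t • N i) ∈ M) : Nat.choose (Nat.card F - 1 + d) d ≤ Nat.card M := by
  have h := Cfsg.Agent.H110.BR.poly_method F d 1 le_rfl (fun i _ => N i) hN M fun i t ht => by
    simpa using hM i t ht
  rwa [Nat.div_one] at h

/-- B2 -/
theorem card_of_root' {K : Type u} [Field K] {F : Subfield K} [Finite F] {G : Type w} [Group G] [Finite G]
    {V : Type v} [AddCommGroup V] [Module K V] [FiniteDimensional K V] {ρ : G →* Module.End K V}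
    {H M : Subgroup G} (hn : ∀ h ∈ H, ∀ m ∈ M, h * m * h⁻¹ ∈ M) (hD : Dns (ad ρ) H) {a : Module.End K V}
    (ha : ∀ t ∈ F, ∃ m ∈ M, ρ m = 1 + t • a) {d : ℕ}
    (hd : ∀ S : Submodule K (Module.End K V), Inv (ad ρ) ⊤ S → a ∈ S → d ≤ Module.finrank K S) :
    Nat.choose (Nat.card F - 1 + d) d ≤ Nat.card M :=
  Cfsg.Agent.H869.BR.card_of_root hn hD ha hd

theorem PolyDeg.mono {K : Type u} {V : Type v} {G : Type w} [Field K] [AddCommGroup V] [Module K V] [Group G]
    {ρ : G →* Module.End K V} {F : Subfield K} {ι : Type*} {x : ι → F → G} {e e' : ℕ} (h : PolyDeg ρ F x e)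
    (he : e ≤ e') : PolyDeg ρ F x e' := by
  intro i
  obtain ⟨c, hc⟩ := h i
  refine ⟨fun j => if j ≤ e then c j else 0, fun t => ?_⟩
  rw [hc t]
  have h1 : Finset.range (e + 1) ⊆ Finset.range (e' + 1) := Finset.range_mono (by omega)
  rw [← Finset.sum_subset h1 fun j _ hj => by
    rw [Finset.mem_range, not_lt] at hj
    beta_reduce
    rw [if_neg (by omega), smul_zero]]
  refine Finset.sum_congr rfl fun j hj => ?_
  rw [Finset.mem_range] at hj
  beta_reduce
  rw [if_pos (by omega)]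

/-- scalars act trivially -/
theorem ad_of_scalar {K : Type u} [Field K] {G : Type w} [Group G] {V : Type v} [AddCommGroup V] [Module K V]
    {ρ : G →* Module.End K V} {g : G} {c : K} (h : ρ g = c • 1) : ad ρ g = 1 := by
  refine LinearMap.ext fun X => ?_
  have h1 : ρ g * ρ g⁻¹ = 1 := by rw [← map_mul, mul_inv_cancel, map_one]
  rw [ad_apply, Module.End.one_apply]
  calc ρ g * X * ρ g⁻¹ = X * ρ g * ρ g⁻¹ := by rw [h, smul_mul_assoc, one_mul, mul_smul_comm, mul_one]
    _ = X := by rw [mul_assoc, h1, mul_one]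

/-- `ad (ad ρ) g = 1` only if `ad ρ g = 1` -/
theorem ad_eq_one_of {K : Type u} [Field K] {G : Type w} [Group G] {V : Type v} [AddCommGroup V] [Module K V]
    [Nontrivial V] {ρ : G →* Module.End K V} {g : G} (h : ad (ad ρ) g = 1) : ad ρ g = 1 := by
  -- `ad ρ g` commutes with everything
  have hc : ∀ Y : Module.End K (Module.End K V), ad ρ g * Y = Y * ad ρ g := by
    intro Y
    have h1 : ad ρ g * Y * ad ρ g⁻¹ = Y := by
      rw [← ad_apply, h, Module.End.one_apply]
    have h2 : ad ρ g⁻¹ * ad ρ g = 1 := by rw [← map_mul, inv_mul_cancel, map_one]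
    calc ad ρ g * Y = ad ρ g * Y * (ad ρ g⁻¹ * ad ρ g) := by rw [h2, mul_one]
      _ = ad ρ g * Y * ad ρ g⁻¹ * ad ρ g := by rw [← mul_assoc]
      _ = Y * ad ρ g := by rw [h1]
  obtain ⟨c, hc⟩ : ∃ c : K, ∀ X : Module.End K V, ad ρ g X = c • X := by
    by_contra hcon
    have h3 : ∀ X : Module.End K V, X ≠ 0 → ∃ c : K, ad ρ g X = c • X := by
      intro X hX
      by_contra hn
      have hind : ∃ f : Module.End K V →ₗ[K] K, f X = 0 ∧ f (ad ρ g X) ≠ 0 := by
        have hns : ad ρ g X ∉ Submodule.span K {X} := by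
          rw [Submodule.mem_span_singleton]
          rintro ⟨c, hc⟩
          exact hn ⟨c, hc.symm⟩
        obtain ⟨f, hf1, hf2⟩ := Submodule.exists_le_ker_of_notMem hns
        exact ⟨f, hf2 (Submodule.mem_span_singleton_self X), hf1⟩
      obtain ⟨f, hf1, hf2⟩ := hind
      have h4 := LinearMap.congr_fun (hc (f.smulRight X)) X
      simp only [Module.End.mul_apply, LinearMap.smulRight_apply] at h4
      rw [hf1, zero_smul, map_zero] at h4
      exact hX ((smul_eq_zero.1 h4.symm).resolve_left hf2)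
    have hone : (1 : Module.End K V) ≠ 0 := one_ne_zero
    obtain ⟨c, hc1⟩ := h3 1 hone
    refine hcon ⟨c, fun X => ?_⟩
    -- use a functional with value one at `1`
    obtain ⟨f, hf⟩ : ∃ f : Module.End K V →ₗ[K] K, f 1 = 1 := by
      have hns : (1 : Module.End K V) ∉ (⊥ : Submodule K (Module.End K V)) := by rwa [Submodule.mem_bot]
      obtain ⟨f, hf1, -⟩ := Submodule.exists_le_ker_of_notMem hns
      refine ⟨(f 1)⁻¹ • f, ?_⟩
      rw [LinearMap.smul_apply, smul_eq_mul, inv_mul_cancel₀ hf1]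
    have h4 := LinearMap.congr_fun (hc (f.smulRight X)) 1
    simp only [Module.End.mul_apply, LinearMap.smulRight_apply] at h4
    rw [hf, one_smul, hc1, map_smul, hf, smul_eq_mul, mul_one] at h4
    exact h4
  have h1 : ad ρ g 1 = 1 := by
    rw [ad_apply, mul_one, ← map_mul, mul_inv_cancel, map_one]
  have hone : (1 : Module.End K V) ≠ 0 := one_ne_zero
  have hc1 : c = 1 := by
    have h2 := hc 1
    rw [h1] at h2
    by_contra hne
    have h3 : (1 - c) • (1 : Module.End K V) = 0 := by rw [sub_smul, one_smul, ← h2, sub_self]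
    exact hone ((smul_eq_zero.1 h3).resolve_left (sub_ne_zero.2 (Ne.symm hne)))
  refine LinearMap.ext fun X => ?_
  rw [hc X, hc1, one_smul, Module.End.one_apply]

/-- perfect groups have determinant one -/
theorem det_one {K : Type u} [Field K] {G : Type w} [Group G] (hG : commutator G = ⊤) {W : Type v} [AddCommGroup W]
    [Module K W] (σ : G →* Module.End K W) (g : G) : LinearMap.det (σ g) = 1 := by
  let f : G →* K := (LinearMap.det : Module.End K W →* K).comp σ
  have h1 : commutator G ≤ (f.toHomUnits).ker := by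
    rw [commutator_def, Subgroup.commutator_le]
    intro a _ b _
    rw [MonoidHom.mem_ker, map_commutatorElement, commutatorElement_eq_one_iff_mul_comm, mul_comm]
  have h2 : g ∈ (f.toHomUnits).ker := h1 (hG ▸ Subgroup.mem_top g)
  rw [MonoidHom.mem_ker] at h2
  have h3 := congrArg Units.val h2
  exact h3

/-- **D5** -/
theorem row_of_fam' (hstr : StStr.{u, u, w}) (hcrg : StCRG.{u, u, w}) (n : ℕ) : ∃ C q₀ : ℕ, ∀ (p d q : ℕ)
    (K : Type u) [Field K] (F : Subfield K) (G : Type w) [Group G]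
    (V W : Type u) [AddCommGroup V] [Module K V] [AddCommGroup W] [Module K W] (ρ : G →* Module.End K V)
    (σ : G →* Module.End K W), q₀ ≤ q → Fam p n d q F ρ σ → Row.{u, w} C q G := by
  classical
  obtain ⟨B, hB⟩ := hstr n
  obtain ⟨C, hC⟩ : ∃ C : ℕ, C = n ^ 4 + n ^ 2 + 4 + B := ⟨_, rfl⟩
  refine ⟨C, 2 * C + 2, fun p d q K _ F G _ V W _ _ _ _ ρ σ hq h => ?_⟩
  obtain ⟨ι, x, hx, hρ, hσ⟩ := h.root
  have := h.finF
  have := h.finG
  have := h.fdV
  have := h.fdW
  have := h.char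
  have := h.closed
  have hpf : Fact p.Prime := ⟨h.prime⟩
  have hnt : Nontrivial V := Module.finrank_pos_iff.1 (by rw [h.dimV]; have := h.two_le; omega)
  have hdimE : Module.finrank K (Module.End K V) = n ^ 2 := by
    rw [Module.finrank_linearMap, h.dimV, sq]
  have hdimL : Module.finrank K (Module.End K (Module.End K V)) = n ^ 4 := by
    rw [Module.finrank_linearMap, hdimE]
    ring
  have hpol : PolyDeg (ad (ad ρ)) F x 4 :=
    Cfsg.Agent.H886.BR.polyDeg_ad hx (Cfsg.Agent.H886.BR.polyDeg_ad hx hρ)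
  refine ⟨K, inferInstance, F, ι, x, Module.End K (Module.End K V), W, W, inferInstance, inferInstance, inferInstance,
    inferInstance, inferInstance, inferInstance, ad (ad ρ), σ, σ, inferInstance, h.cardF, hx, inferInstance,
    inferInstance, inferInstance, by rw [hdimL]; omega, h.dimW.trans (by omega), h.dimW.trans (by omega),
    hpol.mono (by omega), hσ.mono (by omega), hσ.mono (by omega), h.trn, h.trn, ?_, ?_⟩
  · intro k hk hkC
    obtain ⟨g, hg⟩ := h.pw k hk (by omega)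
    exact ⟨g, fun h1 => hg (ad_eq_one_of h1)⟩
  intro H hH y hy hyk htr _
  have hyB : ∀ k, 0 < k → k ≤ B → ¬ ∃ c : K, ρ (y ^ k) = c • 1 := by
    rintro k hk hkB ⟨c, hc⟩
    refine hyk k hk (by omega) ?_
    exact ad_of_scalar (c := 1) (by rw [one_smul]; exact ad_of_scalar hc)
  obtain ⟨M, hMH, hn, hDM, hirr, hperf, hsim, hnc, hlie, hcen⟩ := hB p h.prime K h.locfin G V ρ h.dimV h.two_le h.inj
    h.qs h.irr h.tprim H hH y hy hyB
  -- the centre of `M`
  have hpz : ¬ p ∣ Nat.card (Subgroup.center M) := by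
    intro hdvd
    obtain ⟨z, hz⟩ := exists_prime_orderOf_dvd_card' p hdvd
    obtain ⟨c, hc⟩ := (hcen z).1 z.2
    have hzp : z ^ p = 1 := by rw [← hz]; exact pow_orderOf_eq_one z
    have hcp : c ^ p = 1 := by
      have h1 : ρ (((z : M) : G) ^ p) = 1 := by
        have h2 : (((z : M) : G)) ^ p = 1 := by
          have := congrArg (fun t : Subgroup.center M => ((t : M) : G)) hzp
          simpa using this
        rw [h2, map_one]
      rw [map_pow, hc, smul_pow, one_pow] at h1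
      have h3 : (c ^ p - 1) • (1 : Module.End K V) = 0 := by rw [sub_smul, h1, one_smul, sub_self]
      exact sub_eq_zero.1 ((smul_eq_zero.1 h3).resolve_right one_ne_zero)
    have hc1 : c = 1 := by
      have h1 : (c - 1) ^ p = 0 := by rw [sub_pow_char, one_pow, hcp, sub_self]
      exact sub_eq_zero.1 (pow_eq_zero_iff h.prime.ne_zero |>.1 h1)
    have hz1 : ((z : M) : G) = 1 := h.inj (by rw [hc, hc1, one_smul, map_one])
    have hz2 : z = 1 := Subtype.ext (Subtype.ext hz1)
    rw [hz2, orderOf_one] at hz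
    exact h.prime.ne_one hz.symm
  obtain ⟨U, hU⟩ := hcrg p M hperf hsim hlie hpz
  have hσM : Irr σ M := h.inh M hDM
  have hz : ∀ z : M, z ∈ Subgroup.center M → σ z = 1 := by
    intro z hzc
    obtain ⟨c, hc⟩ := (hcen z).1 hzc
    exact h.cen z c hc
  have hσ' : Irr (σ.comp M.subtype) ⊤ :=
    ⟨hσM.1, fun S hS => hσM.2 S fun m hm v hv => hS ⟨m, hm⟩ (Subgroup.mem_top _) v hv⟩
  obtain ⟨w, hw, hfix⟩ := hU.one K W (σ.comp M.subtype) hσ' fun z hzc => hz z hzc
  have huw : ∀ u ∈ U, σ (u : G) w = w := (hfix w).2 ⟨1, (one_smul K w).symm⟩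
  -- the subgroup `U` of `G`
  have hUG : U.map M.subtype ≤ M := by
    rintro _ ⟨u, -, rfl⟩
    exact u.2
  have hUp : IsPGroup p (U.map M.subtype) := hU.isP.map _
  have hUne : U.map M.subtype ≠ ⊥ := by
    intro h1
    exact hU.ne ((Subgroup.map_eq_bot_iff_of_injective U M.subtype_injective).1 h1)
  obtain ⟨z, hzU, a, ha0, haa, hza, hba, hd⟩ := h.ext M (U.map M.subtype) hUG hUp hUne hDM w hw (by
    intro v
    rw [← hfix v]
    constructor
    · intro h1 u hu
      exact h1 u ⟨u, hu, rfl⟩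
    · rintro h1 _ ⟨u, hu, rfl⟩
      exact h1 u hu)
  have hroot := Cfsg.Agent.H601.BR.root_full h.locfin (F := F) ρ σ hMH hn hU hσM hz hw huw
    (fun g _ => det_one h.qs.perf σ g) haa ⟨z, hUG hzU, hza⟩ (fun b c hb hbw => hba b b.2 (by
      rintro _ ⟨u, hu, rfl⟩
      exact ⟨b * u * b⁻¹, hb u hu, by simp⟩) c hbw) hy htr (pow_mem (h.trF y) _)
  have hcard := card_of_root' hn (Cfsg.Agent.H545.BR.dns_of_ad hH) hroot hd
  rw [h.cardF] at hcard
  have hM : M = ⊤ := by
    by_contra hM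
    exact absurd (h.count M hM) (not_lt.2 hcard)
  rw [eq_top_iff, ← hM]
  exact hMH

end Cfsg.Agent.H883.BR
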